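import Cfsg.Agent.S0246
import Cfsg.Agent.Class.SpOrder
import Cfsg.Prelude.Def_Classical

/-! No element of order seven of `PSp₄(q)` is conjugate to its square, unless `7 ∣ q`. -/

set_option autoImplicit false
set_option linter.unusedVariables false

namespace Cfsg.Lib.StdA.A7

open Subgroup Polynomial

universe u

private theorem kp_mat {n L : Type*} [Fintype n] [DecidableEq n] [Field L] [IsAlgClosed L]
    (hn : Fintype.card n = 4) (h7 : (7 : L) ≠ 0) {M : Matrix n n L} (m7 : M ^ 7 = 1)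
    (c2 : (M ^ 2).charpoly = M.charpoly) (c6 : (M ^ 6).charpoly = M.charpoly) : M = 1 := by
  have : Nonempty n := Fintype.card_pos_iff.1 (by omega)
  have p2 : ∀ l ∈ spectrum L M, l ^ 2 ∈ spectrum L M := fun l hl => by
    have := spectrum.pow_mem_pow M 2 hl
    rwa [Matrix.mem_spectrum_iff_isRoot_charpoly, c2,
      ← Matrix.mem_spectrum_iff_isRoot_charpoly] at this
  have p6 : ∀ l ∈ spectrum L M, l ^ 6 ∈ spectrum L M := fun l hl => by
    have := spectrum.pow_mem_pow M 6 hl
    rwa [Matrix.mem_spectrum_iff_isRoot_charpoly, c6,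
      ← Matrix.mem_spectrum_iff_isRoot_charpoly] at this
  have h1 : ∀ l ∈ spectrum L M, l = 1 := fun l hl => by
    by_contra hne
    have l7 : l ^ 7 = 1 := by
      have := spectrum.pow_mem_pow M 7 hl
      rwa [m7, spectrum.one_eq, Set.mem_singleton_iff] at this
    have : Fact (Nat.Prime 7) := ⟨by norm_num⟩
    have ho : orderOf l = 7 := orderOf_eq_prime l7 hne
    have e5 : l ^ 5 = (l ^ 2) ^ 6 := by
      rw [← pow_mul, show 2 * 6 = 5 + 7 from rfl, pow_add, l7, mul_one]
    have e4 : l ^ 4 = (l ^ 2) ^ 2 := by rw [← pow_mul]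
    refine M.charpoly_monic.ne_zero (eq_zero_of_natDegree_lt_card_of_eval_eq_zero M.charpoly
      (ι := Fin 5) (f := fun i => l ^ (![1, 2, 4, 5, 6] i : ℕ)) (fun i j hij => ?_)
      (fun i => Matrix.mem_spectrum_iff_isRoot_charpoly.1 ?_) (by simp [hn]))
    · have hb : ∀ i : Fin 5, (![1, 2, 4, 5, 6] i : ℕ) < 7 := by decide
      have := (ho ▸ IsPrimitiveRoot.orderOf l).pow_inj (hb i) (hb j) hij
      clear hij
      revert i j; decide
    · fin_cases i
      · simpa using hl
      · exact p2 l hl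
      · exact e4 ▸ p2 _ (p2 l hl)
      · exact e5 ▸ p6 _ (p2 l hl)
      · exact p6 l hl
  have hu : IsUnit (∑ i ∈ Finset.range 7, M ^ i) := by
    by_contra hu
    have h0 := (spectrum.zero_mem_iff L).2 hu
    have e : (∑ i ∈ Finset.range 7, M ^ i) = aeval M (∑ i ∈ Finset.range 7, (X : L[X]) ^ i) := by
      simp
    rw [e, spectrum.map_polynomial_aeval_of_nonempty M _
      (spectrum.nonempty_of_isAlgClosed_of_finiteDimensional L M)] at h0
    obtain ⟨k, hk, e0⟩ := h0
    rw [h1 k hk] at e0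
    apply h7
    simpa [eval_finsetSum] using e0
  have := mul_geom_sum M 7
  rw [m7, sub_self, hu.mul_left_eq_zero] at this
  exact sub_eq_zero.1 this

private theorem kp_dvd {K : Type} [Field K] [Fintype K] (h7 : (7 : K) = 0) :
    128 ∣ Nat.card (PSp 2 K) := by
  have : Fact (Nat.Prime 7) := ⟨by norm_num⟩
  have : CharP K 7 := (CharP.charP_iff_prime_eq_zero (by norm_num)).2 (by exact_mod_cast h7)
  obtain ⟨k, -, hk⟩ := FiniteField.card K 7
  have e := card_eq_card_quotient_mul_card_subgroup (center (Matrix.symplecticGroup (Fin 2) K))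
  rw [Agent.S0246.result (F := K) rfl 2 (by norm_num), Class.card_symplecticGroup,
    Class.spOrd] at e
  generalize Fintype.card K = q at *
  have q2 : q ^ 2 % 16 = 1 := by
    rw [hk, ← pow_mul, mul_comm, pow_mul, Nat.pow_mod]; norm_num
  have q4 : q ^ 4 % 32 = 1 := by
    rw [hk, ← pow_mul, mul_comm, pow_mul, Nat.pow_mod]; norm_num
  have hd : 128 * 2 ∣ Nat.card (PSp 2 K) * Nat.gcd 2 (q - 1) := by
    rw [← e]
    refine Dvd.dvd.mul_left ?_ _
    simp only [Finset.prod_range_succ, Finset.prod_range_zero]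
    norm_num
    exact (show 256 ∣ 16 * 32 by norm_num).trans (mul_dvd_mul (by omega) (by omega))
  exact Nat.dvd_of_mul_dvd_mul_right two_pos
    (hd.trans (mul_dvd_mul_left _ (Nat.gcd_dvd_left _ _)))

theorem kp {L : Type u} [Group L] [Finite L] {K : Type} [Field K] [Fintype K]
    (hK : Odd (Fintype.card K)) (e : L ≃* PSp 2 K) (h2 : ¬ 128 ∣ Nat.card L) {s g : L}
    (s1 : s ≠ 1) (s7 : s ^ 7 = 1) : g * s * g⁻¹ ≠ s * s := by
  intro hc
  have h7 : (7 : K) ≠ 0 := fun h => h2 (Nat.card_congr e.toEquiv ▸ kp_dvd h)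
  obtain ⟨a, ha⟩ := QuotientGroup.mk_surjective (e s)
  obtain ⟨b, hb⟩ := QuotientGroup.mk_surjective (e g)
  have sq : ∀ c ∈ center (Matrix.symplecticGroup (Fin 2) K), c ^ 2 = 1 := fun c hc => by
    apply Subtype.ext
    rcases (Agent.S0246.mem_center_iff c).1 hc with h | h <;> simp [h]
  have a7 : a ^ 7 ∈ center _ := by
    rw [← QuotientGroup.eq_one_iff, QuotientGroup.mk_pow, ha, ← map_pow, s7, map_one]
  set m := a ^ 8 with hm
  have m7 : m ^ 7 = 1 := by
    rw [hm, ← pow_mul, show 8 * 7 = 7 * 2 * 4 from rfl, pow_mul, pow_mul, sq _ a7, one_pow]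
  have hms : (m : PSp 2 K) = e s := by
    rw [hm, QuotientGroup.mk_pow, ha, ← map_pow, pow_succ, s7, one_mul]
  have hz : (m * m)⁻¹ * (b * m * b⁻¹) ∈ center _ := by
    rw [← QuotientGroup.eq]
    simp only [QuotientGroup.mk_mul, QuotientGroup.mk_inv, hms, hb, ← map_mul, ← map_inv, hc]
  have hb2 : b * m * b⁻¹ = m ^ 2 := by
    set z := (m * m)⁻¹ * (b * m * b⁻¹) with hzd
    have e1 : b * m * b⁻¹ = m ^ 2 * z := by rw [hzd, pow_two]; group
    have cm : Commute (m ^ 2) z := mem_center_iff.1 hz _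
    have e2 : (m ^ 2 * z) ^ 7 = 1 := by rw [← e1, conj_pow, m7]; group
    rw [cm.mul_pow, ← pow_mul, mul_comm 2, pow_mul, m7, one_pow, one_mul,
      show 7 = 2 * 3 + 1 from rfl, pow_succ, pow_mul, sq z hz, one_pow, one_mul] at e2
    rw [e1, e2, mul_one]
  have c2 : (m.1 ^ 2).charpoly = m.1.charpoly := by
    have : (m.1 ^ 2) = b.1 * (m.1 * (b⁻¹).1) := by
      rw [← mul_assoc]; exact_mod_cast congrArg Subtype.val hb2.symm
    rw [this, Matrix.charpoly_mul_comm, mul_assoc, ← Submonoid.coe_mul, inv_mul_cancel]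
    simp
  have c6 : (m.1 ^ 6).charpoly = m.1.charpoly := by
    have h6 : m ^ 6 = m⁻¹ := eq_inv_of_mul_eq_one_left (by rw [← pow_succ, m7])
    have : (m.1 ^ 6) = -Matrix.J _ K * (m.1.transpose *
        Matrix.J _ K) := by
      rw [← mul_assoc, ← SymplecticGroup.coe_inv, ← h6]; simp
    rw [this, Matrix.charpoly_mul_comm, mul_assoc, mul_neg, Matrix.J_squared, neg_neg, mul_one,
      Matrix.charpoly_transpose]
  let f := algebraMap K (AlgebraicClosure K)
  have key : f.mapMatrix m.1 = 1 := by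
    refine kp_mat (by simp) (fun h => h7 (f.injective (by rw [map_ofNat, map_zero, h]))) ?_ ?_ ?_
    · rw [← map_pow, ← SubmonoidClass.coe_pow, m7]; simp
    · rw [← map_pow, RingHom.mapMatrix_apply, RingHom.mapMatrix_apply, Matrix.charpoly_map,
        Matrix.charpoly_map, c2]
    · rw [← map_pow, RingHom.mapMatrix_apply, RingHom.mapMatrix_apply, Matrix.charpoly_map,
        Matrix.charpoly_map, c6]
  have m1 : m = 1 := Subtype.ext (Matrix.map_injective f.injective (by simpa using key))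
  apply s1
  apply e.injective
  rw [← hms, m1, map_one]; rfl

end Cfsg.Lib.StdA.A7
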